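import Mathlib
import Cfsg.Agent.H86.SolutionCount
import Cfsg.Agent.S3993

/-!
Counting elements by order in a group of order `q(q²-1)`, `q` a power of the odd prime `p`: the congruence
conditions that the numbers of elements of a given order satisfy force exactly `q²-1` elements of order divisible
by `p`.
-/

set_option autoImplicit false

namespace Cfsg.Agent.H25.NsePGL

variable {G : Type*} [Group G] [Finite G]

/-- The number of elements of order `n`. -/
noncomputable def cnt (G : Type*) [Group G] (n : ℕ) : ℕ := Nat.card {g : G // orderOf g = n}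

theorem cnt_pos_of (g : G) : 0 < cnt G (orderOf g) :=
  have : Nonempty {x : G // orderOf x = orderOf g} := ⟨⟨g, rfl⟩⟩
  Nat.card_pos

theorem card_subtype_order (Q : ℕ → Prop) :
    ∃ D : Finset ℕ, (∀ d, d ∈ D ↔ Q d ∧ ∃ g : G, orderOf g = d) ∧
      Nat.card {g : G // Q (orderOf g)} = ∑ d ∈ D, cnt G d := by
  classical
  haveI := Fintype.ofFinite G
  refine ⟨(Finset.univ.filter fun g : G => Q (orderOf g)).image orderOf, fun d => ?_, ?_⟩
  · simp only [Finset.mem_image, Finset.mem_filter, Finset.mem_univ, true_and]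
    exact ⟨fun ⟨g, hg, e⟩ => ⟨e ▸ hg, g, e⟩, fun ⟨hQ, g, e⟩ => ⟨g, e ▸ hQ, e⟩⟩
  · rw [Nat.card_eq_fintype_card, Fintype.card_subtype,
      Finset.card_eq_sum_card_image orderOf]
    refine Finset.sum_congr rfl fun d hd => ?_
    obtain ⟨g, hg, rfl⟩ := Finset.mem_image.1 hd
    rw [cnt, Nat.card_eq_fintype_card, Fintype.card_subtype, Finset.filter_filter]
    congr 1
    ext x
    simp only [Finset.mem_filter, Finset.mem_univ, true_and]
    exact ⟨fun h => h.2, fun h => ⟨h ▸ (Finset.mem_filter.1 hg).2, h⟩⟩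

theorem cnt_one : cnt G 1 = 1 := by
  rw [cnt, Nat.card_eq_one_iff_unique]
  exact ⟨⟨fun x y => Subtype.ext ((orderOf_eq_one_iff.1 x.2).trans (orderOf_eq_one_iff.1 y.2).symm)⟩,
    ⟨⟨1, orderOf_one⟩⟩⟩

theorem le_two_of_odd_cnt {d : ℕ} (h : Odd (cnt G d)) : d ≤ 2 := by
  by_contra hd
  have h1 : 2 ∣ d.totient := (Nat.totient_even (by omega)).two_dvd
  exact (Nat.not_even_iff_odd.2 h) (even_iff_two_dvd.2 (h1.trans (H86.totient_dvd_card_orderOf d)))

/-- The arithmetic data: `|G| = q (q²-1)` with `q` a power of the odd prime `p`, `q > 1`. -/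
structure Data (G : Type*) [Group G] (p q : ℕ) : Prop where
  prime : p.Prime
  odd : p ≠ 2
  pow : ∃ f, 0 < f ∧ q = p ^ f
  card : Nat.card G = q * (q ^ 2 - 1)

variable {p q : ℕ}

namespace Data

variable (D : Data G p q)
include D

omit [Finite G] in
theorem dvd_q : p ∣ q := by
  obtain ⟨f, hf, rfl⟩ := D.pow
  exact dvd_pow_self p hf.ne'

omit [Finite G] in
theorem three_le : 3 ≤ q := by
  obtain ⟨f, hf, hq⟩ := D.pow
  have h1 := D.prime.two_le
  have h2 := D.odd
  have h3 : p ≤ q := by rw [hq]; exact Nat.le_self_pow hf.ne' p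
  omega

omit [Finite G] in
theorem sq_gt : q < q ^ 2 := by
  have := D.three_le
  nlinarith

omit [Finite G] in
theorem not_dvd_sq_sub_one : ¬ p ∣ q ^ 2 - 1 := fun h => by
  have h1 : p ∣ q ^ 2 := dvd_pow D.dvd_q two_ne_zero
  have h2 := Nat.dvd_sub h1 h
  rw [Nat.sub_sub_self (by have := D.sq_gt; omega)] at h2
  exact D.prime.ne_one (Nat.dvd_one.1 h2)

omit [Finite G] in
theorem coprime : Nat.Coprime q (q ^ 2 - 1) := by
  obtain ⟨f, hf, hq⟩ := D.pow
  rw [hq]
  rw [Nat.coprime_pow_left_iff hf, Nat.Prime.coprime_iff_not_dvd D.prime, ← hq]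
  exact D.not_dvd_sq_sub_one

theorem dvd_sq_sub_one_iff (g : G) : g ^ (q ^ 2 - 1) = 1 ↔ ¬ p ∣ orderOf g := by
  rw [← orderOf_dvd_iff_pow_eq_one]
  refine ⟨fun h hp => D.not_dvd_sq_sub_one (hp.trans h), fun h => ?_⟩
  have h1 : orderOf g ∣ q * (q ^ 2 - 1) := D.card ▸ orderOf_dvd_natCard g
  refine (Nat.Coprime.dvd_mul_left ?_).1 h1
  obtain ⟨f, hf, hq⟩ := D.pow
  rw [hq]
  exact ((D.prime.coprime_iff_not_dvd.2 h).pow_left f).symm

theorem exists_order_p : ∃ x : G, orderOf x = p := by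
  haveI := Fact.mk D.prime
  exact exists_prime_orderOf_dvd_card' p (D.card ▸ D.dvd_q.trans (dvd_mul_right _ _))

/-- If the orders prime to `p` other than one occur a multiple of `q` times, then exactly `q²-1` elements have
order divisible by `p`. -/
theorem card_singular (h : ∀ g : G, g ≠ 1 → ¬ p ∣ orderOf g → q ∣ cnt G (orderOf g)) :
    Nat.card {g : G // p ∣ orderOf g} = q ^ 2 - 1 := by
  classical
  obtain ⟨s, hs, hsum⟩ := card_subtype_order (G := G) (fun d => ¬ p ∣ d)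
  have h1 : (1 : ℕ) ∈ s := (hs 1).2 ⟨fun e => D.prime.ne_one (Nat.dvd_one.1 e), 1, orderOf_one⟩
  rw [← Finset.add_sum_erase _ _ h1, cnt_one] at hsum
  have hk : q ∣ ∑ d ∈ s.erase 1, cnt G d := Finset.dvd_sum fun d hd => by
    obtain ⟨hd1, hd⟩ := Finset.mem_erase.1 hd
    obtain ⟨hp, g, rfl⟩ := (hs d).1 hd
    exact h g (fun e => hd1 (by rw [e, orderOf_one])) hp
  obtain ⟨k, hk⟩ := hk
  rw [hk] at hsum
  have hM : Nat.card {g : G // g ^ (q ^ 2 - 1) = 1} = Nat.card {g : G // ¬ p ∣ orderOf g} :=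
    Nat.card_congr (Equiv.subtypeEquivRight D.dvd_sq_sub_one_iff)
  obtain ⟨i, hi⟩ := S3993.result (G := G) (q ^ 2 - 1) (D.card ▸ dvd_mul_left _ _)
  have htot : Nat.card {g : G // p ∣ orderOf g} + Nat.card {g : G // ¬ p ∣ orderOf g} = q * (q ^ 2 - 1) := by
    rw [← Nat.card_sum, ← D.card]
    exact Nat.card_congr (Equiv.sumCompl _)
  have hpos : 0 < Nat.card {g : G // p ∣ orderOf g} := by
    obtain ⟨x, hx⟩ := D.exists_order_p
    haveI : Nonempty {g : G // p ∣ orderOf g} := ⟨⟨x, hx ▸ dvd_rfl⟩⟩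
    exact Nat.card_pos
  have h3 := D.three_le
  have hilt : i < q := by
    by_contra hc
    have := Nat.mul_le_mul_left (q ^ 2 - 1) (not_lt.1 hc)
    rw [mul_comm q] at htot
    omega
  have hiq : (q ^ 2 - 1) * i + i = q * q * i := by
    rw [← Nat.succ_mul]
    congr 1
    have := D.sq_gt
    rw [pow_two] at this ⊢
    omega
  have hdvd : q ∣ i + 1 := by
    have h4 : q * k + (i + 1) = q * (q * i) := by
      rw [← mul_assoc, ← hiq, ← hi, hM, hsum]
      ring
    exact (Nat.dvd_add_right (dvd_mul_right q k)).1 (h4 ▸ dvd_mul_right q _)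
  have hi1 : i + 1 = q := Nat.le_antisymm hilt (Nat.le_of_dvd (by omega) hdvd)
  have hfin : (q ^ 2 - 1) * i + (q ^ 2 - 1) = q * (q ^ 2 - 1) := by
    rw [← Nat.mul_succ, Nat.succ_eq_add_one, hi1, mul_comm]
  omega

end Data

end Cfsg.Agent.H25.NsePGL
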