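import Cfsg.Agent.H25.NsePGL.Recognition
import Cfsg.Agent.H79.PGLTwo
import Cfsg.Agent.H1.Orders

/-!
The numbers of elements of given order in `PGL₂(q)`, and the passage from equal sets of such numbers to the
hypotheses of the recognition.
-/

set_option autoImplicit false
set_option linter.style.haveILetI false

namespace Cfsg.Agent.H25.NsePGL

open Matrix

variable {F : Type*} [Field F] [Fintype F]

local notation "M₂" => Matrix (Fin 2) (Fin 2) F
local notation "GL₂" => Matrix.GeneralLinearGroup (Fin 2) F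
local notation "PG" => Matrix.GeneralLinearGroup (Fin 2) F ⧸
  Subgroup.center (Matrix.GeneralLinearGroup (Fin 2) F)
local notation "q" => Fintype.card F

theorem card_model : Nat.card PG = q * (q ^ 2 - 1) := by
  have h1 : Nat.card GL₂ = Nat.card PG * Nat.card (Subgroup.center GL₂) :=
    Subgroup.card_eq_card_quotient_mul_card_subgroup _
  rw [H1.card_center_GL, H1.natCard_units rfl, Matrix.card_GL_field, Fin.prod_univ_two] at h1
  have hq : 2 ≤ q := Fintype.one_lt_card
  have h2 : q ^ 2 - q ^ 1 = q * (q - 1) := by rw [pow_one, pow_two, Nat.mul_sub, mul_one]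
  simp only [Fin.val_zero, Fin.val_one, pow_zero, h2] at h1
  refine Nat.eq_of_mul_eq_mul_right (show 0 < q - 1 by omega) (h1.symm.trans ?_)
  ring

theorem model_data {p : ℕ} [Fact p.Prime] [CharP F p] (hp : p ≠ 2) : Data PG p q := by
  obtain ⟨n, -, hn⟩ := FiniteField.card F p
  exact ⟨Fact.out, hp, ⟨n, n.pos, hn⟩, card_model⟩

theorem model_single {p : ℕ} [Fact p.Prime] [CharP F p] (hp : p ≠ 2) (g : PG) (h : p ∣ orderOf g) :
    orderOf g = p := by
  obtain ⟨g, rfl⟩ := QuotientGroup.mk_surjective g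
  have D := model_data (F := F) hp
  have hpp : p.Prime := Fact.out
  have hns := D.not_dvd_sq_sub_one
  rw [show q ^ 2 - 1 = (q + 1) * (q - 1) by rw [← Nat.sq_sub_sq], hpp.dvd_mul] at hns
  rcases H79.PGLTwo.orderOf_dvd_cases p hp g with h' | h' | h'
  · exact Nat.dvd_antisymm h' h
  · exact absurd (Or.inr (h.trans h')) hns
  · exact absurd (Or.inl (h.trans h')) hns

theorem model_dvd_cnt {p : ℕ} [Fact p.Prime] [CharP F p] (hp : p ≠ 2) (g : PG) (h1 : g ≠ 1)
    (h : ¬ p ∣ orderOf g) : q ∣ cnt PG (orderOf g) := by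
  classical
  have D := model_data (F := F) hp
  have hpp : p.Prime := Fact.out
  haveI := Fintype.ofFinite PG
  refine H86.dvd_card_of_fibers (fun x : {x : PG // orderOf x = orderOf g} => ConjClasses.mk (x : PG)) _ fun C => ?_
  rcases isEmpty_or_nonempty {x : {x : PG // orderOf x = orderOf g} // ConjClasses.mk (x : PG) = C} with he | ⟨⟨⟨x, hx⟩, hC⟩⟩
  · rw [Nat.card_of_isEmpty]; exact dvd_zero _
  subst hC
  have hcong : ∀ y : PG, IsConj x y → orderOf y = orderOf g := fun y hy => by
    obtain ⟨c, hc⟩ := isConj_iff.1 hy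
    rw [← hc, ← hx, show c * x * c⁻¹ = MulAut.conj c x from rfl, MulEquiv.orderOf_eq]
  rw [show Nat.card {y : {y : PG // orderOf y = orderOf g} // ConjClasses.mk (y : PG) = ConjClasses.mk x} =
      Nat.card (ConjClasses.mk x).carrier from Nat.card_congr
        { toFun := fun y => ⟨y.1.1, ConjClasses.mem_carrier_iff_mk_eq.2 y.2⟩
          invFun := fun y => ⟨⟨y.1, hcong y.1 (ConjClasses.mk_eq_mk_iff_isConj.1
            (ConjClasses.mem_carrier_iff_mk_eq.1 y.2).symm)⟩, ConjClasses.mem_carrier_iff_mk_eq.1 y.2⟩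
          left_inv := fun _ => rfl
          right_inv := fun _ => rfl }, Nat.card_eq_fintype_card, ConjClasses.card_carrier, ← Nat.card_eq_fintype_card (α := PG),
    ← Nat.card_eq_fintype_card (α := MulAction.stabilizer (ConjAct PG) x), ConjAct.stabilizer_eq_centralizer]
  set C := Subgroup.centralizer ({x} : Set PG) with hCdef
  have hcop : Nat.Coprime q (Nat.card C) := by
    obtain ⟨n, hn, hqn⟩ := D.pow
    rw [hqn, Nat.coprime_pow_left_iff hn, hpp.coprime_iff_not_dvd]
    intro hd
    obtain ⟨y, hy⟩ := exists_prime_orderOf_dvd_card' p hd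
    have hy' : orderOf (y : PG) = p := by rw [Subgroup.orderOf_coe, hy]
    have hc : Commute (y : PG) x := Subgroup.mem_centralizer_singleton_iff.1 y.2
    have hco : (orderOf (y : PG)).Coprime (orderOf x) := by
      rw [hy', hx]; exact hpp.coprime_iff_not_dvd.2 h
    have h2 := hc.orderOf_mul_eq_mul_orderOf_of_coprime hco
    rw [hy', hx] at h2
    have h3 := model_single hp ((y : PG) * x) (h2 ▸ dvd_mul_right _ _)
    rw [h2] at h3
    exact h1 (orderOf_eq_one_iff.1 ((Nat.mul_eq_left hpp.pos.ne').1 h3))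
  have hdiv : q ∣ Nat.card PG / Nat.card C :=
    Nat.dvd_div_of_mul_dvd (hcop.symm.mul_dvd_of_dvd_of_dvd (Subgroup.card_subgroup_dvd_card C)
      (card_model (F := F) ▸ dvd_mul_right _ _))
  exact hdiv

theorem model_cnt_p {p : ℕ} [Fact p.Prime] [CharP F p] (hp : p ≠ 2) : cnt PG p = q ^ 2 - 1 := by
  rw [← (model_data (F := F) hp).card_singular (model_dvd_cnt hp)]
  exact Nat.card_congr (Equiv.subtypeEquivRight fun g =>
    ⟨fun h => h.symm ▸ dvd_rfl, model_single hp g⟩)

theorem model_cnt_two (h2 : (2 : F) ≠ 0) : cnt PG 2 = q ^ 2 := by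
  classical
  let f : {g : GL₂ // (g : M₂).trace = 0} → GL₂ := Subtype.val
  have hiff : ∀ g : GL₂, orderOf (g : PG) = 2 ↔ (g : M₂).trace = 0 := by
    intro g
    have hCH : (g : M₂) * (g : M₂) = (g : M₂).trace • (g : M₂) - (g : M₂).det • (1 : M₂) := by
      ext i j
      fin_cases i <;> fin_cases j <;>
        simp [Matrix.mul_apply, Fin.sum_univ_two, Matrix.trace_fin_two, Matrix.det_fin_two] <;> ring
    constructor
    · intro ho
      have hsq : ((g * g : GL₂) : PG) = 1 := by
        have := pow_orderOf_eq_one (g : PG)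
        rw [ho, pow_two, ← QuotientGroup.mk_mul] at this
        exact this
      obtain ⟨a, b, c⟩ := H79.PGLTwo.scalar_of_mk_eq_one hsq
      rw [Units.val_mul, hCH] at a b c
      simp at a b c
      by_contra ht
      refine (show (g : PG) ≠ 1 from fun e => by rw [e, orderOf_one] at ho; omega)
        (H79.PGLTwo.mk_eq_one_of_scalar (c := (g : M₂) 0 0) ?_)
      have a' : (g : M₂) 0 1 = 0 := a.resolve_left ht
      have b' : (g : M₂) 1 0 = 0 := b.resolve_left ht
      have c' : (g : M₂) 1 1 = (g : M₂) 0 0 := by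
        rcases c with c | c
        · exact c.symm
        · exact absurd c ht
      ext i j
      fin_cases i <;> fin_cases j <;> simp [a', b', c']
    · intro ht
      haveI := Fact.mk Nat.prime_two
      refine orderOf_eq_prime ?_ fun e => ?_
      · rw [pow_two, ← QuotientGroup.mk_mul]
        refine H79.PGLTwo.mk_eq_one_of_scalar (c := -(g : M₂).det) ?_
        rw [Units.val_mul, hCH, ht, zero_smul, zero_sub, neg_smul]
      · obtain ⟨a, b, c⟩ := H79.PGLTwo.scalar_of_mk_eq_one e
        rw [Matrix.trace_fin_two, ← c, ← two_mul, mul_eq_zero] at ht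
        have h00 := ht.resolve_left h2
        refine g.det_ne_zero ?_
        rw [Matrix.det_fin_two, h00, a, zero_mul, zero_mul, sub_zero]
  have hpre : Nat.card {g : GL₂ // (g : M₂).trace = 0} = Nat.card (Subgroup.center GL₂) * cnt PG 2 := by
    rw [cnt, ← Nat.card_prod]
    exact (Nat.card_congr (Equiv.subtypeEquivRight fun g => (hiff g).symm)).trans
      (Nat.card_congr (QuotientGroup.preimageMkEquivSubgroupProdSet (Subgroup.center GL₂) {x : PG | orderOf x = 2}))
  let T : Set (F × F × F) := {v | v.1 * v.1 + v.2.1 * v.2.2 = 0}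
  have hT : Nat.card T = q ^ 2 := by
    let e : F × F → T := fun v => if hv : v.1 = 0 then ⟨(0, 0, v.2), by simp [T]⟩
      else ⟨(v.2, v.1, -(v.2 * v.2) / v.1), by simp only [T, Set.mem_setOf_eq]; field_simp; ring⟩
    have he : Function.Bijective e := by
      refine ⟨Function.LeftInverse.injective (g := fun w : T =>
        (w.1.2.1, if w.1.2.1 = 0 then w.1.2.2 else w.1.1)) fun ⟨x, y⟩ => ?_, fun ⟨⟨a, b, c⟩, hv⟩ => ?_⟩
      · by_cases hx : x = 0 <;> simp [e, hx]
      · have hv' : a * a + b * c = 0 := hv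
        by_cases hb : b = 0
        · have ha : a = 0 := by simpa [hb] using hv'
          exact ⟨(0, c), by simp [e, ha, hb]⟩
        · refine ⟨(b, a), ?_⟩
          simp only [e, dif_neg hb, Subtype.mk.injEq, Prod.mk.injEq, true_and]
          field_simp
          linear_combination -hv'
    rw [← Nat.card_eq_of_bijective e he, Nat.card_prod, Nat.card_eq_fintype_card, pow_two]
  have htr : Nat.card {g : GL₂ // (g : M₂).trace = 0} = Nat.card ↥(Tᶜ) := by
    refine Nat.card_congr
      { toFun := fun g => ⟨((g.1 : M₂) 0 0, (g.1 : M₂) 0 1, (g.1 : M₂) 1 0), ?_⟩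
        invFun := fun v => ⟨GeneralLinearGroup.mkOfDetNeZero !![v.1.1, v.1.2.1; v.1.2.2, -v.1.1] ?_, ?_⟩
        left_inv := fun g => ?_
        right_inv := fun v => ?_ }
    · intro h
      have h' : (g.1 : M₂) 0 0 * (g.1 : M₂) 0 0 + (g.1 : M₂) 0 1 * (g.1 : M₂) 1 0 = 0 := h
      have ht := g.2
      rw [Matrix.trace_fin_two] at ht
      refine g.1.det_ne_zero ?_
      rw [Matrix.det_fin_two, show (g.1 : M₂) 1 1 = -(g.1 : M₂) 0 0 by linear_combination ht]
      linear_combination -h'
    · intro h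
      refine v.2 ?_
      simp only [T, Set.mem_setOf_eq]
      rw [Matrix.det_fin_two] at h
      simp at h
      linear_combination -h
    · simp [Matrix.trace_fin_two]
    · apply Subtype.ext; apply Units.ext
      have ht := g.2
      rw [Matrix.trace_fin_two] at ht
      ext i j
      fin_cases i <;> fin_cases j <;> simp
      linear_combination -ht
    · simp
  haveI := Fintype.ofFinite T
  rw [htr, H1.card_center_GL, H1.natCard_units rfl, Nat.card_eq_fintype_card, Fintype.card_compl_set,
    ← Nat.card_eq_fintype_card (α := T), hT, Fintype.card_prod, Fintype.card_prod] at hpre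
  have hq : 2 ≤ q := Fintype.one_lt_card
  refine Nat.eq_of_mul_eq_mul_left (show 0 < q - 1 by omega) (hpre.symm.trans ?_)
  rw [Nat.sub_mul, one_mul, pow_two]

/-- Equal order and equal sets of same-order counts give the recognition hypotheses. -/
theorem hyp_of_nse {p : ℕ} [Fact p.Prime] [CharP F p] (hp : p ≠ 2) {G : Type*} [Group G] [Finite G]
    (hcard : Nat.card G = Nat.card PG)
    (hnse : {c : ℕ | 0 < c ∧ ∃ n : ℕ, c = cnt G n} = {c : ℕ | 0 < c ∧ ∃ n : ℕ, c = cnt PG n}) :
    Hyp G p q := by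
  classical
  have hpp : p.Prime := Fact.out
  obtain ⟨f, hf, hqf⟩ := (model_data (F := F) hp).pow
  have D : Data G p q := ⟨hpp, hp, ⟨f, hf, hqf⟩, hcard.trans card_model⟩
  have h3 := D.three_le
  have hsq := D.sq_gt
  have hpq := D.dvd_q
  have h2F : (2 : F) ≠ 0 := Ring.two_ne_zero (by rwa [ringChar.eq F p])
  have hval : ∀ g : G, cnt G (orderOf g) = 1 ∨ q ∣ cnt G (orderOf g) ∨ cnt G (orderOf g) = q ^ 2 - 1 := by
    intro g
    obtain ⟨hpos, n, hn⟩ := (hnse.le ⟨cnt_pos_of g, _, rfl⟩ :)
    rw [hn] at hpos ⊢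
    obtain ⟨⟨x, rfl⟩⟩ := (Nat.card_pos_iff.1 hpos).1
    by_cases hx : p ∣ orderOf x
    · rw [model_single hp x hx]
      exact Or.inr (Or.inr (model_cnt_p hp))
    · by_cases hx1 : x = 1
      · rw [hx1, orderOf_one, cnt_one]; exact Or.inl rfl
      · exact Or.inr (Or.inl (model_dvd_cnt hp x hx1 hx))
  obtain ⟨-, n, hn⟩ := (hnse.ge ⟨by positivity, 2, (model_cnt_two (F := F) h2F).symm⟩ :)
  have hn2 : cnt G 2 = q ^ 2 := by
    have hodd : Odd (q ^ 2) := (Nat.odd_iff.2 (FiniteField.odd_card_of_char_ne_two (by rwa [ringChar.eq F p]))).pow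
    have hle := le_two_of_odd_cnt (hn ▸ hodd)
    have hn1 : n ≠ 1 := fun e => by rw [e, cnt_one] at hn; omega
    have hn0 : n ≠ 0 := fun e => by
      have h0 : 0 < cnt G n := by rw [← hn]; positivity
      rw [e] at h0
      obtain ⟨⟨x, hx⟩⟩ := (Nat.card_pos_iff.1 h0).1
      exact (orderOf_pos x).ne' hx
    rw [hn]
    congr 1
    omega
  have hne1 : ∀ g : G, g ≠ 1 → cnt G (orderOf g) ≠ 1 := fun g hg h1 => by
    have hinv : g⁻¹ = g := congrArg Subtype.val (@Subsingleton.elim _
      (Nat.card_eq_one_iff_unique.1 h1).1 (⟨g⁻¹, orderOf_inv g⟩ : {x : G // orderOf x = orderOf g}) ⟨g, rfl⟩)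
    haveI := Fact.mk Nat.prime_two
    have h2 : orderOf g = 2 := orderOf_eq_prime (by rw [pow_two]; nth_rewrite 1 [← hinv]; exact inv_mul_cancel g) hg
    rw [h2, hn2] at h1
    omega
  -- the order `p` has the value `q ^ 2 - 1`
  obtain ⟨x, hx⟩ := D.exists_order_p
  have hxp : cnt G p = q ^ 2 - 1 := by
    have hp1 : p ∣ cnt G p + 1 := by
      have h := S3993.result (G := G) p (D.card ▸ hpq.trans (dvd_mul_right _ _))
      obtain ⟨s, hs, hsum⟩ := card_subtype_order (G := G) (fun d => d ∣ p)
      rw [Nat.card_congr (Equiv.subtypeEquivRight fun g : G => orderOf_dvd_iff_pow_eq_one (n := p))] at hsum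
      have hs' : s = {1, p} := by
        ext d
        rw [hs, Finset.mem_insert, Finset.mem_singleton]
        constructor
        · rintro ⟨hd, -⟩; exact (Nat.dvd_prime hpp).1 hd
        · rintro (rfl | rfl)
          · exact ⟨one_dvd _, 1, orderOf_one⟩
          · exact ⟨dvd_rfl, x, hx⟩
      rw [hsum, hs', Finset.sum_pair hpp.ne_one.symm, cnt_one, add_comm] at h
      exact h
    rcases hx ▸ hval x with h | h | h
    · rw [h] at hp1
      exact absurd ((Nat.prime_dvd_prime_iff_eq hpp Nat.prime_two).1 hp1) hp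
    · exact absurd (Nat.dvd_one.1 ((Nat.dvd_add_right (hpq.trans h)).1 hp1)) hpp.ne_one
    · exact h
  -- and no other order does
  have honly : ∀ g : G, g ≠ 1 → ¬ p ∣ orderOf g → q ∣ cnt G (orderOf g) := by
    intro g hg hgp
    rcases hval g with h | h | h
    · exact absurd h (hne1 g hg)
    · exact h
    exfalso
    obtain ⟨s, hs, hsum⟩ := card_subtype_order (G := G) (fun _ => True)
    rw [Nat.card_congr (Equiv.subtypeUnivEquiv fun _ : G => trivial), D.card] at hsum
    have h1 : (1 : ℕ) ∈ s := (hs 1).2 ⟨trivial, 1, orderOf_one⟩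
    rw [← Finset.add_sum_erase _ _ h1, cnt_one,
      ← Finset.sum_filter_add_sum_filter_not (s.erase 1) (fun d => cnt G d = q ^ 2 - 1)] at hsum
    rw [Finset.sum_congr rfl (fun d hd => (Finset.mem_filter.1 hd).2), Finset.sum_const, smul_eq_mul] at hsum
    set A := (s.erase 1).filter fun d => cnt G d = q ^ 2 - 1 with hA
    have hk : q ∣ ∑ d ∈ (s.erase 1).filter (fun d => ¬ cnt G d = q ^ 2 - 1), cnt G d := by
      refine Finset.dvd_sum fun d hd => ?_
      obtain ⟨hd', hne⟩ := Finset.mem_filter.1 hd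
      obtain ⟨hd1, hds⟩ := Finset.mem_erase.1 hd'
      obtain ⟨-, y, rfl⟩ := (hs d).1 hds
      rcases hval y with h' | h' | h'
      · exact absurd h' (hne1 y fun e => hd1 (by rw [e, orderOf_one]))
      · exact h'
      · exact absurd h' hne
    obtain ⟨k, hk⟩ := hk
    rw [hk] at hsum
    have hmemA : ∀ y : G, y ≠ 1 → cnt G (orderOf y) = q ^ 2 - 1 → orderOf y ∈ A := fun y hy hy' =>
      Finset.mem_filter.2 ⟨Finset.mem_erase.2 ⟨fun e => hy (orderOf_eq_one_iff.1 e),
        (hs _).2 ⟨trivial, y, rfl⟩⟩, hy'⟩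
    have htwo : 1 < A.card := Finset.one_lt_card.2 ⟨_, hmemA g hg h, _,
      hmemA x (fun e => hpp.ne_one (by rw [← hx, e, orderOf_one])) (by rw [hx]; exact hxp),
      fun e => hgp (by rw [e, hx])⟩
    have hlt : A.card < q := by
      by_contra hc
      have h' := Nat.mul_le_mul_right (q ^ 2 - 1) (not_lt.1 hc)
      omega
    have hsq1 : A.card * (q ^ 2 - 1) + A.card = A.card * (q * q) := by
      rw [← Nat.mul_succ]
      congr 1
      rw [pow_two] at hsq ⊢
      omega
    have hdvd : q ∣ A.card - 1 := by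
      have h5 : q * (q ^ 2 - 1) + (A.card - 1) = q * (A.card * q + k) := by
        rw [hsum]
        have e : q * (A.card * q + k) = A.card * (q * q) + q * k := by ring
        rw [e, ← hsq1]
        omega
      exact (Nat.dvd_add_right (dvd_mul_right q _)).1 (h5 ▸ dvd_mul_right q _)
    have := Nat.le_of_dvd (by omega) hdvd
    omega
  have hsing := D.card_singular honly
  refine { toData := D, single := fun g hg => ?_, cntp := hxp, cnt2 := hn2 }
  by_contra hne
  have hlt : cnt G p < Nat.card {y : G // p ∣ orderOf y} := by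
    let ι : {y : G // orderOf y = p} → {y : G // p ∣ orderOf y} := fun y => ⟨y.1, y.2.symm ▸ dvd_rfl⟩
    haveI := Fintype.ofFinite G
    rw [cnt, Nat.card_eq_fintype_card, Nat.card_eq_fintype_card]
    exact Fintype.card_lt_of_injective_of_notMem ι (b := ⟨g, hg⟩)
      (fun a b e => Subtype.ext (congrArg (fun w : {y : G // p ∣ orderOf y} => w.1) e))
      (fun ⟨⟨y, hy'⟩, hy⟩ => hne (by rw [← show y = g from congrArg Subtype.val hy]; exact hy'))
  omega

end Cfsg.Agent.H25.NsePGL
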