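import Cfsg.Agent.H25.NsePGL.Sylow

/-!
The Zassenhaus action on the Sylow subgroups: `q²` involutions force every element exchanging two points to be
an involution, so the two-point stabiliser is abelian and inverted, and the group is `PGL₂(q)`.
-/

set_option autoImplicit false
set_option linter.style.haveILetI false

namespace Cfsg.Agent.H25.NsePGL

open MulAction

universe u

variable {G : Type u} [Group G] [Finite G] {p q : ℕ}

namespace Hyp

variable (H : Hyp G p q)
include H

theorem card_stab₂ {P Q : Sylow p G} (hne : Q ≠ P) :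
    Nat.card ↥(stabilizer G P ⊓ stabilizer G Q) = q - 1 := by
  haveI := Fact.mk H.prime
  let f : ↥(P : Subgroup G) × ↥(stabilizer G P ⊓ stabilizer G Q) → stabilizer G P := fun w =>
    ⟨(w.1 : G) * w.2, mul_mem (mem_stabilizer_iff.2 (smul_self w.1.2)) w.2.2.1⟩
  have hf : Function.Bijective f := by
    refine ⟨fun ⟨u, k⟩ ⟨v, l⟩ h => ?_, fun g => ?_⟩
    · have h' : (u : G) * k = v * l := congrArg Subtype.val h
      have huQ : (u : G) • Q = (v : G) • Q := by
        have := congrArg (· • Q) h'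
        simpa only [mul_smul, mem_stabilizer_iff.1 k.2.2, mem_stabilizer_iff.1 l.2.2] using this
      obtain ⟨w, -, hw⟩ := H.regular hne (R := (v : G) • Q) (fun e =>
        hne (smul_left_cancel (v : G) (e.trans (smul_self v.2).symm)))
      obtain rfl : u = v := (hw u huQ).trans (hw v rfl).symm
      exact Prod.ext rfl (Subtype.ext (mul_left_cancel h'))
    · have hgQ : (g : G) • Q ≠ P := fun e => hne (smul_left_cancel (g : G) (e.trans g.2.symm))
      obtain ⟨u, hu, -⟩ := H.regular hne hgQ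
      refine ⟨(u, ⟨(u : G)⁻¹ * g, ?_, ?_⟩), Subtype.ext (mul_inv_cancel_left _ _)⟩
      · exact (stabilizer G P).mul_mem ((stabilizer G P).inv_mem (mem_stabilizer_iff.2 (smul_self u.2))) g.2
      · exact mem_stabilizer_iff.2 (by rw [mul_smul, inv_smul_eq_iff, hu])
  have h1 := Nat.card_eq_of_bijective f hf
  rw [Nat.card_prod, H.card_sylow P] at h1
  have h2 := P.card_eq_index_normalizer
  rw [H.number] at h2
  have h3 := (Subgroup.normalizer (P : Set G)).card_mul_index
  rw [H.card] at h3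
  have h3' : Nat.card ↥(Subgroup.normalizer (P : Set G)) * (q + 1) = q * (q ^ 2 - 1) := by
    rw [← h3]
    congr 1
  rw [← Sylow.stabilizer_eq_normalizer, ← h1, show q ^ 2 - 1 = (q + 1) * (q - 1) by rw [← Nat.sq_sub_sq]] at h3'
  have h4 := H.three_le
  refine Nat.eq_of_mul_eq_mul_left (show 0 < q * (q + 1) by positivity) ?_
  rw [mul_assoc q (q + 1) (q - 1), ← h3']
  ring

theorem zhyp : H7.ZHyp G (Sylow p G) := by
  haveI := Fact.mk H.prime
  have h3 := H.three_le
  have hn := H.number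
  refine ⟨⟨fun {g k} h => ?_⟩, fun {a b c d} hab hcd => ?_, H.three, ?_⟩
  · obtain ⟨a, b, hab⟩ : ∃ a b : Sylow p G, a ≠ b := by
      haveI := Finite.one_lt_card_iff_nontrivial.1 (by omega : 1 < Nat.card (Sylow p G))
      exact exists_pair_ne _
    obtain ⟨c, hc⟩ : ∃ c : Sylow p G, c ≠ a ∧ c ≠ b := by
      by_contra hc
      push Not at hc
      have : Nat.card (Sylow p G) ≤ 2 := by
        refine (Nat.card_le_card_of_surjective (fun x : Bool => if x then a else b) fun c => ?_).trans (by simp)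
        by_cases h : c = a
        · exact ⟨true, h.symm⟩
        · exact ⟨false, (hc c h).symm⟩
      omega
    have := H.three (k⁻¹ * g) a b c hab hc.2.symm hc.1.symm (by rw [mul_smul, h, inv_smul_smul])
      (by rw [mul_smul, h, inv_smul_smul]) (by rw [mul_smul, h, inv_smul_smul])
    exact (inv_mul_eq_one.1 this).symm
  · obtain ⟨g, hg⟩ := MulAction.exists_smul_eq G a c
    have hgb : g • b ≠ c := fun e => hab (smul_left_cancel g (hg.trans e.symm))
    obtain ⟨u, hu, -⟩ := H.regular hgb (Ne.symm hcd)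
    exact ⟨u * g, by rw [mul_smul, hg, smul_self u.2], by rw [mul_smul, hu]⟩
  · haveI := Finite.one_lt_card_iff_nontrivial.1 (by omega : 1 < Nat.card (Sylow p G))
    obtain ⟨a, b, hab⟩ := exists_pair_ne (Sylow p G)
    haveI := Finite.one_lt_card_iff_nontrivial.1
      (by rw [H.card_stab₂ hab.symm]; omega : 1 < Nat.card ↥(stabilizer G a ⊓ stabilizer G b))
    obtain ⟨⟨g, hga, hgb⟩, hg⟩ := exists_ne (1 : ↥(stabilizer G a ⊓ stabilizer G b))
    exact ⟨g, fun e => hg (Subtype.ext e), a, b, hab, hga, hgb⟩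

/-- The elements exchanging two points are all involutions. -/
theorem swap {a b : Sylow p G} (hne : b ≠ a) :
    ∃ t : G, t • a = b ∧ ∀ h ∈ stabilizer G a ⊓ stabilizer G b, (t * h) • a = b ∧ orderOf (t * h) = 2 := by
  classical
  haveI := Fact.mk H.prime
  haveI := Fintype.ofFinite (Sylow p G)
  let s : Sylow p G → ℕ := fun c => Nat.card {t : {t : G // orderOf t = 2} // (t : G) • a = c}
  have hsum : ∑ c, s c = q ^ 2 := by
    rw [← H.cnt2, cnt, ← Nat.card_congr (Equiv.sigmaFiberEquiv fun t : {t : G // orderOf t = 2} => (t : G) • a),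
      Nat.card_sigma]
  have hle_a : s a ≤ q := by
    rcases isEmpty_or_nonempty {t : {t : G // orderOf t = 2} // (t : G) • a = a} with h | ⟨⟨t₀⟩⟩
    · exact (Nat.card_of_isEmpty (α := {t : {t : G // orderOf t = 2} // (t : G) • a = a})).le.trans (Nat.zero_le _)
    · rw [← H.card_sylow a]
      have hmem : ∀ t : {t : {t : G // orderOf t = 2} // (t : G) • a = a},
          ((t₀.1 : G))⁻¹ * t.1 ∈ (a : Subgroup G) := by
        intro t
        have h3 := H.three_le
        haveI : Nontrivial (a : Subgroup G) :=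
          Finite.one_lt_card_iff_nontrivial.1 (by rw [H.card_sylow a]; omega)
        obtain ⟨⟨u, hu⟩, hu1⟩ := exists_ne (1 : (a : Subgroup G))
        rw [← H.cent_eq hu fun e => hu1 (Subtype.ext e), Subgroup.mem_centralizer_singleton_iff]
        have e1 := H.invert t.1.2 (Sylow.smul_eq_iff_mem_normalizer.1 t.2) u hu
        have e2 := H.invert t₀.1.2 (Sylow.smul_eq_iff_mem_normalizer.1 t₀.2) u hu
        calc (t₀.1 : G)⁻¹ * t.1 * u = (t₀.1 : G)⁻¹ * ((t.1 : G) * u * (t.1 : G)⁻¹) * t.1 := by group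
          _ = (t₀.1 : G)⁻¹ * ((t₀.1 : G) * u * (t₀.1 : G)⁻¹) * t.1 := by rw [e1, e2]
          _ = u * ((t₀.1 : G)⁻¹ * t.1) := by group
      exact Nat.card_le_card_of_injective (fun t => (⟨(t₀.1 : G)⁻¹ * t.1, hmem t⟩ : (a : Subgroup G)))
        fun t t' h => Subtype.ext (Subtype.ext (mul_left_cancel (congrArg Subtype.val h)))
  have hsq : ∀ t : {t : G // orderOf t = 2}, (t : G) * t = 1 := fun t => by
    have := pow_orderOf_eq_one (t : G)
    rwa [t.2, pow_two] at this
  have hb : ∀ c, ∀ t : {t : {t : G // orderOf t = 2} // (t : G) • a = c}, (t.1 : G) • c = a := fun c t => by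
    exact (congrArg ((t.1 : G) • ·) t.2.symm).trans (by rw [← mul_smul, hsq, one_smul])
  have hdiff : ∀ c, ∀ t₀ t : {t : {t : G // orderOf t = 2} // (t : G) • a = c},
      (t₀.1 : G)⁻¹ * t.1 ∈ stabilizer G a ⊓ stabilizer G c := fun c t₀ t =>
    ⟨mem_stabilizer_iff.2 (by rw [mul_smul, t.2, inv_smul_eq_iff, t₀.2]),
      mem_stabilizer_iff.2 (by rw [mul_smul, hb c t, inv_smul_eq_iff, hb c t₀])⟩
  have hinj : ∀ c (t₀ : {t : {t : G // orderOf t = 2} // (t : G) • a = c}),
      Function.Injective (fun t => (⟨(t₀.1 : G)⁻¹ * t.1, hdiff c t₀ t⟩ : ↥(stabilizer G a ⊓ stabilizer G c))) :=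
    fun c t₀ t t' h => Subtype.ext (Subtype.ext (mul_left_cancel (congrArg Subtype.val h)))
  have hle : ∀ c, c ≠ a → s c ≤ q - 1 := fun c hc => by
    rcases isEmpty_or_nonempty {t : {t : G // orderOf t = 2} // (t : G) • a = c} with h | ⟨⟨t₀⟩⟩
    · exact (Nat.card_of_isEmpty (α := {t : {t : G // orderOf t = 2} // (t : G) • a = c})).le.trans (Nat.zero_le _)
    · rw [← H.card_stab₂ hc]
      exact Nat.card_le_card_of_injective _ (hinj c t₀)
  have hsb : s b = q - 1 := by
    by_contra hlt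
    have h1 : ∑ c ∈ Finset.univ.erase a, s c < ∑ _c ∈ Finset.univ.erase a, (q - 1) :=
      Finset.sum_lt_sum (fun c hc => hle c (Finset.ne_of_mem_erase hc))
        ⟨b, Finset.mem_erase.2 ⟨hne, Finset.mem_univ _⟩, lt_of_le_of_ne (hle b hne) hlt⟩
    rw [← Finset.add_sum_erase _ _ (Finset.mem_univ a)] at hsum
    rw [Finset.sum_const, smul_eq_mul, Finset.card_erase_of_mem (Finset.mem_univ _), Finset.card_univ,
      ← Nat.card_eq_fintype_card, H.number, Nat.add_sub_cancel, Nat.mul_sub, mul_one, ← pow_two] at h1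
    have := H.sq_gt
    omega
  have hne' : Nonempty {t : {t : G // orderOf t = 2} // (t : G) • a = b} := by
    rw [← not_isEmpty_iff]
    intro h
    have : s b = 0 := Nat.card_of_isEmpty
    have := H.three_le
    omega
  obtain ⟨t₀⟩ := hne'
  refine ⟨t₀.1, t₀.2, fun h hh => ?_⟩
  obtain ⟨t, ht⟩ := ((hinj b t₀).bijective_of_nat_card_le
    (by rw [H.card_stab₂ hne, ← hsb])).2 ⟨h, hh⟩
  have e : (t₀.1 : G)⁻¹ * t.1 = h := congrArg Subtype.val ht
  rw [← e, mul_inv_cancel_left]
  exact ⟨t.2, t.1.2⟩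

/-- The group is `PGL₂(q)`. -/
theorem iso : ∃ (F : Type) (_ : Field F) (_ : Fintype F), Fintype.card F = q ∧
    Nonempty (G ≃* (GL (Fin 2) F ⧸ Subgroup.center (GL (Fin 2) F))) := by
  haveI := Fact.mk H.prime
  have h3 := H.three_le
  haveI := Fintype.ofFinite (Sylow p G)
  haveI := Finite.one_lt_card_iff_nontrivial.1 (by rw [H.number]; omega : 1 < Nat.card (Sylow p G))
  obtain ⟨a, b, hab⟩ := exists_pair_ne (Sylow p G)
  have K : H7.ZK G a b (a : Subgroup G) :=
    ⟨H.zhyp, hab, fun u hu => mem_stabilizer_iff.2 (smul_self hu),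
      fun g hg u hu => ((Subgroup.mem_normalizer_iff.1 (Sylow.smul_eq_iff_mem_normalizer.1 hg)) u).1 hu,
      fun y y' hy hy' => H.regular hy hy'⟩
  obtain ⟨t, hta, ht⟩ := H.swap hab.symm
  have ht1 := ht 1 (one_mem _)
  rw [mul_one] at ht1
  have htt : t * t = 1 := by
    have := pow_orderOf_eq_one t
    rwa [ht1.2, pow_two] at this
  have hinv : ∀ h ∈ stabilizer G a ⊓ stabilizer G b, t * h * t⁻¹ = h⁻¹ := fun h hh => by
    have h2 := pow_orderOf_eq_one (t * h)
    rw [(ht h hh).2, pow_two] at h2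
    have hti : t⁻¹ = t := inv_eq_of_mul_eq_one_right htt
    rw [hti]
    exact eq_inv_of_mul_eq_one_left (by simpa [mul_assoc] using h2)
  have hcomm : ∀ h ∈ stabilizer G a ⊓ stabilizer G b, ∀ k ∈ stabilizer G a ⊓ stabilizer G b, h * k = k * h := by
    intro h hh k hk
    have e := hinv (h * k) (mul_mem hh hk)
    rw [show t * (h * k) * t⁻¹ = (t * h * t⁻¹) * (t * k * t⁻¹) by group, hinv h hh, hinv k hk,
      ← mul_inv_rev, inv_inj] at e
    exact e.symm
  have htb : t • b = a := by rw [← hta, ← mul_smul, htt, one_smul]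
  obtain ⟨F, iF, iFF, hF, e⟩ := H77.TIInv.pgl_of_full K (fun u hu v hv => H.comm a u hu v hv) hcomm
    (by rw [← Nat.card_eq_fintype_card, H.number, H.card_stab₂ hab.symm]; omega) ⟨t, hta, htb, hinv⟩
  exact ⟨F, iF, iFF, hF.trans (H.card_sylow a), e⟩

end Hyp

end Cfsg.Agent.H25.NsePGL
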