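import Cfsg.Agent.H25.NsePGL.Arith
import Cfsg.Agent.H77.TIInv.PGL

/-!
A group of order `q(q²-1)` in which every element of order divisible by `p` has order `p`, with `q²-1` elements of
order `p` and `q²` involutions, acts sharply triply transitively on its Sylow `p`-subgroups and is `PGL₂(q)`.
-/

set_option autoImplicit false
set_option linter.style.haveILetI false

namespace Cfsg.Agent.H25.NsePGL

open MulAction

universe u

variable {G : Type u} [Group G] [Finite G]

/-- The counting hypotheses that pin down `PGL₂(q)`. -/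
structure Hyp (G : Type*) [Group G] (p q : ℕ) : Prop extends Data G p q where
  single : ∀ g : G, p ∣ orderOf g → orderOf g = p
  cntp : cnt G p = q ^ 2 - 1
  cnt2 : cnt G 2 = q ^ 2

variable {p q : ℕ}

namespace Hyp

variable (H : Hyp G p q)
include H

theorem card_sylow (P : Sylow p G) : Nat.card P = q := by
  haveI := Fact.mk H.prime
  obtain ⟨f, hf, hq⟩ := H.pow
  apply Nat.dvd_antisymm
  · refine (Nat.Coprime.dvd_mul_right ?_).1 (H.card ▸ Subgroup.card_subgroup_dvd_card (P : Subgroup G))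
    obtain ⟨n, hn⟩ := P.isPGroup'.exists_card_eq
    rw [hn]
    exact (H.prime.coprime_iff_not_dvd.2 H.not_dvd_sq_sub_one).pow_left n
  · rw [hq]
    exact P.pow_dvd_card_of_pow_dvd_card (by rw [H.card, hq]; exact dvd_mul_right _ _)

theorem order_of_mem {P : Sylow p G} {u : G} (hu : u ∈ P) (h1 : u ≠ 1) : orderOf u = p := by
  haveI := Fact.mk H.prime
  obtain ⟨n, hn⟩ := P.isPGroup' ⟨u, hu⟩
  have h2 : orderOf u ∣ p ^ n := orderOf_dvd_of_pow_eq_one (congrArg Subtype.val hn)
  obtain ⟨k, -, hk⟩ := (Nat.dvd_prime_pow H.prime).1 h2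
  refine H.single u (hk ▸ dvd_pow_self p fun e => h1 ?_)
  rw [← orderOf_eq_one_iff, hk, e, pow_zero]

theorem order_of_commute {x g : G} (hx : orderOf x = p) (hc : Commute x g) (hg : g ≠ 1) : orderOf g = p := by
  refine H.single g (by_contra fun hp => ?_)
  have hco : (orderOf x).Coprime (orderOf g) := by
    rw [hx]
    exact H.prime.coprime_iff_not_dvd.2 hp
  have h1 := hc.orderOf_mul_eq_mul_orderOf_of_coprime hco
  rw [hx] at h1
  have h2 := H.single (x * g) (h1 ▸ dvd_mul_right _ _)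
  rw [h1] at h2
  exact hg (orderOf_eq_one_iff.1 ((Nat.mul_eq_left H.prime.pos.ne').1 h2))

theorem not_commute_invol {x t : G} (hx : orderOf x = p) (ht : orderOf t = 2) : ¬ Commute x t := fun hc => by
  have h := H.order_of_commute hx hc (fun e => by rw [e, orderOf_one] at ht; omega)
  exact H.odd (h.symm.trans ht)

theorem cent_isPGroup {x : G} (hx : orderOf x = p) :
    IsPGroup p (Subgroup.centralizer ({x} : Set G)) := fun g => ⟨1, by
  rw [pow_one]
  by_cases h : (g : G) = 1
  · exact Subtype.ext (by simp [h])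
  · apply Subtype.ext
    have := H.order_of_commute hx (show Commute x g from
      (Subgroup.mem_centralizer_singleton_iff.1 g.2).symm) h
    rw [SubmonoidClass.coe_pow, ← this, pow_orderOf_eq_one, OneMemClass.coe_one]⟩

/-- Elements of order `p` form one class and have centralisers of order `q`. -/
theorem cent_class {x : G} (hx : orderOf x = p) :
    Nat.card (Subgroup.centralizer ({x} : Set G)) = q ∧
      ∀ y : G, orderOf y = p → ∃ g : G, g * x * g⁻¹ = y := by
  haveI := Fact.mk H.prime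
  set C := Subgroup.centralizer ({x} : Set G) with hC
  obtain ⟨R, hR⟩ := (H.cent_isPGroup hx).exists_le_sylow
  have hle : Nat.card C ≤ q := H.card_sylow R ▸ Subgroup.card_le_of_le hR
  let f : G ⧸ C → {y : G // orderOf y = p} := fun w => Quotient.liftOn' w
    (fun g => ⟨g * x * g⁻¹, by rw [show g * x * g⁻¹ = MulAut.conj g x from rfl, MulEquiv.orderOf_eq, hx]⟩)
    (fun a b hab => Subtype.ext (by
      have h1 : Commute (a⁻¹ * b) x :=
        Subgroup.mem_centralizer_singleton_iff.1 (QuotientGroup.leftRel_apply.1 hab)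
      show a * x * a⁻¹ = b * x * b⁻¹
      calc a * x * a⁻¹ = a * (x * (a⁻¹ * b)) * b⁻¹ := by group
        _ = a * ((a⁻¹ * b) * x) * b⁻¹ := by rw [h1.eq]
        _ = b * x * b⁻¹ := by group))
  have hf : Function.Injective f := by
    intro w w'
    induction w using QuotientGroup.induction_on with | H a => ?_
    induction w' using QuotientGroup.induction_on with | H b => ?_
    intro h
    have h' : a * x * a⁻¹ = b * x * b⁻¹ := congrArg Subtype.val h
    refine QuotientGroup.eq.2 (Subgroup.mem_centralizer_singleton_iff.2 ?_)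
    calc a⁻¹ * b * x = a⁻¹ * (b * x * b⁻¹) * b := by group
      _ = a⁻¹ * (a * x * a⁻¹) * b := by rw [h']
      _ = x * (a⁻¹ * b) := by group
  have hidx : C.index ≤ q ^ 2 - 1 := by
    rw [Subgroup.index, ← H.cntp]
    exact Nat.card_le_card_of_injective f hf
  have hmul : Nat.card C * C.index = q * (q ^ 2 - 1) := C.card_mul_index.trans H.card
  have hpos : 0 < q ^ 2 - 1 := by have := H.sq_gt; have := H.three_le; omega
  have hq : Nat.card C = q := by
    refine le_antisymm hle (Nat.le_of_mul_le_mul_right ?_ hpos)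
    rw [← hmul]
    exact Nat.mul_le_mul_left _ hidx
  refine ⟨hq, fun y hy => ?_⟩
  have hidx' : C.index = q ^ 2 - 1 := by
    rw [hq] at hmul
    exact Nat.eq_of_mul_eq_mul_left (by have := H.three_le; omega) hmul
  obtain ⟨w, hw⟩ := (hf.bijective_of_nat_card_le (by
    rw [← Subgroup.index, hidx', ← H.cntp]; exact le_rfl)).2 ⟨y, hy⟩
  induction w using QuotientGroup.induction_on with | H g => ?_
  exact ⟨g, congrArg Subtype.val hw⟩

theorem cent_of_central {P : Sylow p G} {x : G} (hx : x ∈ P) (h1 : x ≠ 1)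
    (hc : ∀ u ∈ P, Commute u x) : Subgroup.centralizer ({x} : Set G) = P := by
  refine (Subgroup.eq_of_le_of_card_ge (fun u hu => Subgroup.mem_centralizer_singleton_iff.2 (hc u hu)) ?_).symm
  rw [(H.cent_class (H.order_of_mem hx h1)).1, H.card_sylow P]

/-- An involution normalising a Sylow subgroup inverts it. -/
theorem invert {P : Sylow p G} {t : G} (ht : orderOf t = 2)
    (hn : t ∈ Subgroup.normalizer ((P : Subgroup G) : Set G)) : ∀ u ∈ P, t * u * t⁻¹ = u⁻¹ := by
  intro u hu
  have htt : t * t = 1 := by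
    have := pow_orderOf_eq_one t
    rwa [ht, pow_two] at this
  let φ : (P : Subgroup G) →* (P : Subgroup G) :=
    { toFun := fun v => ⟨t * v * t⁻¹, ((Subgroup.mem_normalizer_iff.1 hn) v).1 v.2⟩
      map_one' := Subtype.ext (by simp)
      map_mul' := fun v w => Subtype.ext (by simp [mul_assoc]) }
  have hfree : MonoidHom.FixedPointFree φ := by
    intro v hv
    by_contra h1
    have hv' : t * (v : G) * t⁻¹ = v := congrArg Subtype.val hv
    exact H.not_commute_invol (H.order_of_mem v.2 fun e => h1 (Subtype.ext e)) ht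
      (mul_inv_eq_iff_eq_mul.1 hv').symm
  have hinvol : Function.Involutive φ := fun v => Subtype.ext (by
    show t * (t * (v : G) * t⁻¹) * t⁻¹ = v
    rw [show t * (t * (v : G) * t⁻¹) * t⁻¹ = (t * t) * v * (t * t)⁻¹ by group, htt]
    simp)
  exact congrArg Subtype.val (congrFun (hfree.coe_eq_inv_of_involutive hinvol) ⟨u, hu⟩)

theorem comm (P : Sylow p G) : ∀ u ∈ P, ∀ v ∈ P, Commute u v := by
  haveI := Fact.mk H.prime
  haveI : Nontrivial (P : Subgroup G) := by
    rw [← Finite.one_lt_card_iff_nontrivial]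
    have := H.three_le
    have := H.card_sylow P
    omega
  haveI := P.isPGroup'.center_nontrivial
  obtain ⟨⟨z, hz⟩, hz1⟩ := exists_ne (1 : Subgroup.center (P : Subgroup G))
  have hz1' : (z : G) ≠ 1 := fun e => hz1 (Subtype.ext (Subtype.ext e))
  have hzc : ∀ u ∈ P, Commute u (z : G) := fun u hu =>
    congrArg Subtype.val (Subgroup.mem_center_iff.1 hz ⟨u, hu⟩)
  have hC := H.cent_of_central z.2 hz1' hzc
  have hzp : orderOf (z : G) = p := H.order_of_mem z.2 hz1'
  obtain ⟨g, hg⟩ := (H.cent_class hzp).2 (z : G)⁻¹ (by rw [orderOf_inv, hzp])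
  have hgN : g ∈ Subgroup.normalizer ((P : Subgroup G) : Set G) := by
    rw [Subgroup.mem_normalizer_iff]
    intro u
    rw [← hC]
    simp only [Subgroup.mem_centralizer_singleton_iff]
    have hgz : g * (z : G)⁻¹ * g⁻¹ = z := by
      rw [show g * (z : G)⁻¹ * g⁻¹ = (g * z * g⁻¹)⁻¹ by group, hg, inv_inv]
    constructor
    · intro h
      have h' : g * (u * (z : G)⁻¹) * g⁻¹ = g * ((z : G)⁻¹ * u) * g⁻¹ := by
        rw [(show Commute u (z : G) from h).inv_right.eq]
      calc g * u * g⁻¹ * z = g * u * g⁻¹ * (g * (z : G)⁻¹ * g⁻¹) := by rw [hgz]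
        _ = g * (u * (z : G)⁻¹) * g⁻¹ := by group
        _ = g * ((z : G)⁻¹ * u) * g⁻¹ := h'
        _ = (g * (z : G)⁻¹ * g⁻¹) * (g * u * g⁻¹) := by group
        _ = z * (g * u * g⁻¹) := by rw [hgz]
    · intro h
      have h' : g⁻¹ * ((g * u * g⁻¹) * (z : G)) * g = g⁻¹ * ((z : G) * (g * u * g⁻¹)) * g := by rw [h]
      have hz' : g⁻¹ * (z : G) * g = (z : G)⁻¹ := by
        rw [show g⁻¹ * (z : G) * g = g⁻¹ * (g * (z : G)⁻¹ * g⁻¹) * g by rw [hgz]]
        group
      have h2 : u * (z : G)⁻¹ = (z : G)⁻¹ * u := by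
        rw [← hz']
        calc u * (g⁻¹ * z * g) = g⁻¹ * ((g * u * g⁻¹) * z) * g := by group
          _ = g⁻¹ * ((z : G) * (g * u * g⁻¹)) * g := h'
          _ = g⁻¹ * z * g * u := by group
      exact Commute.inv_right_iff.1 (show Commute u ((z : G)⁻¹) from h2)
  have heven : 2 ∣ orderOf g := by
    by_contra hodd
    have hco : (orderOf g).Coprime 2 := (Nat.prime_two.coprime_iff_not_dvd.2 hodd).symm
    have h2 : Commute (g ^ 2) (z : G) := by
      refine mul_inv_eq_iff_eq_mul.1 ?_
      rw [pow_two, show g * g * (z : G) * (g * g)⁻¹ = g * (g * z * g⁻¹) * g⁻¹ by group, hg,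
        show g * (z : G)⁻¹ * g⁻¹ = (g * z * g⁻¹)⁻¹ by group, hg, inv_inv]
    obtain ⟨m, hm⟩ := exists_pow_eq_self_of_coprime hco.symm
    have h3 : Commute g (z : G) := hm ▸ h2.pow_left m
    rw [h3.eq, mul_inv_cancel_right] at hg
    have h4 : orderOf (z : G) ∣ 2 := orderOf_dvd_of_pow_eq_one (by
      rw [pow_two]
      nth_rewrite 2 [hg]
      exact mul_inv_cancel _)
    rw [hzp] at h4
    exact H.odd ((Nat.prime_dvd_prime_iff_eq H.prime Nat.prime_two).1 h4)
  have ht : orderOf (g ^ (orderOf g / 2)) = 2 := orderOf_pow_orderOf_div (orderOf_pos g).ne' heven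
  have hinv := H.invert ht (pow_mem hgN _)
  intro u hu v hv
  have h := hinv (u * v) (mul_mem hu hv)
  rw [show ∀ t : G, t * (u * v) * t⁻¹ = (t * u * t⁻¹) * (t * v * t⁻¹) from fun t => by group,
    hinv u hu, hinv v hv, ← mul_inv_rev, inv_inj] at h
  exact h.symm

theorem cent_eq {P : Sylow p G} {x : G} (hx : x ∈ P) (h1 : x ≠ 1) :
    Subgroup.centralizer ({x} : Set G) = P :=
  H.cent_of_central hx h1 fun u hu => H.comm P u hu x hx

theorem ti {P Q : Sylow p G} {x : G} (hx : x ∈ P) (hx' : x ∈ Q) (h1 : x ≠ 1) : P = Q :=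
  Sylow.ext ((H.cent_eq hx h1).symm.trans (H.cent_eq hx' h1))

theorem number : Nat.card (Sylow p G) = q + 1 := by
  haveI := Fact.mk H.prime
  let f : (Σ P : Sylow p G, {u : (P : Subgroup G) // u ≠ 1}) → {x : G // orderOf x = p} :=
    fun w => ⟨w.2.1, H.order_of_mem w.2.1.2 fun e => w.2.2 (Subtype.ext e)⟩
  have hf : Function.Bijective f := by
    refine ⟨?_, fun ⟨x, hx⟩ => ?_⟩
    · rintro ⟨P, u⟩ ⟨Q, v⟩ h
      have h' : (u.1 : G) = v.1 := congrArg Subtype.val h
      obtain rfl : P = Q := H.ti u.1.2 (h' ▸ v.1.2) fun e => u.2 (Subtype.ext e)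
      rw [Sigma.mk.injEq]
      exact ⟨rfl, heq_of_eq (Subtype.ext (Subtype.ext h'))⟩
    · have hp : IsPGroup p (Subgroup.zpowers x) := IsPGroup.of_card (n := 1) (by rw [Nat.card_zpowers, hx, pow_one])
      obtain ⟨P, hP⟩ := hp.exists_le_sylow
      refine ⟨⟨P, ⟨⟨x, hP (Subgroup.mem_zpowers x)⟩, fun e => ?_⟩⟩, rfl⟩
      rw [show x = 1 from congrArg Subtype.val e, orderOf_one] at hx
      exact H.prime.ne_one hx.symm
  haveI := Fintype.ofFinite (Sylow p G)
  have hcnt := Nat.card_eq_of_bijective f hf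
  rw [Nat.card_sigma, show Nat.card {x : G // orderOf x = p} = q ^ 2 - 1 from H.cntp] at hcnt
  have hP : ∀ P : Sylow p G, Nat.card {u : (P : Subgroup G) // u ≠ 1} = q - 1 := fun P => by
    classical
    haveI := Fintype.ofFinite (P : Subgroup G)
    rw [Nat.card_eq_fintype_card, Fintype.card_subtype_compl, Fintype.card_subtype_eq,
      ← Nat.card_eq_fintype_card, H.card_sylow P]
  simp only [hP, Finset.sum_const, Finset.card_univ, smul_eq_mul] at hcnt
  rw [← Nat.card_eq_fintype_card] at hcnt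
  have h3 := H.three_le
  refine Nat.eq_of_mul_eq_mul_right (show 0 < q - 1 by omega) (hcnt.trans ?_)
  rw [← Nat.sq_sub_sq]

theorem free {P Q : Sylow p G} (hne : Q ≠ P) {u : G} (hu : u ∈ P) (h : u • Q = Q) : u = 1 := by
  haveI := Fact.mk H.prime
  by_contra h1
  have h2 : u ∈ (P : Subgroup G) ⊓ Subgroup.normalizer (Q : Set G) :=
    ⟨hu, Sylow.smul_eq_iff_mem_normalizer.1 h⟩
  rw [P.isPGroup'.inf_normalizer_sylow] at h2
  exact hne (H.ti h2.2 hu h1)

omit [Finite G] H in
theorem smul_self {P : Sylow p G} {u : G} (hu : u ∈ P) : u • P = P :=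
  Sylow.smul_eq_iff_mem_normalizer.2 (Subgroup.le_normalizer hu)

theorem regular {P Q R : Sylow p G} (hQ : Q ≠ P) (hR : R ≠ P) : ∃! u : (P : Subgroup G), (u : G) • Q = R := by
  let f : ↥(P : Subgroup G) → {S : Sylow p G // S ≠ P} := fun u => ⟨(u : G) • Q, fun e =>
    hQ (smul_left_cancel (u : G) (e.trans (smul_self u.2).symm))⟩
  have hf : Function.Injective f := fun u v h => by
    have h' : (u : G) • Q = (v : G) • Q := congrArg Subtype.val h
    have : (v : G)⁻¹ * (u : G) = 1 :=
      H.free hQ (mul_mem (inv_mem v.2) u.2) (by rw [mul_smul, h', inv_smul_smul])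
    exact Subtype.ext (inv_mul_eq_one.1 this).symm
  have hb : Function.Bijective f := hf.bijective_of_nat_card_le (by
    classical
    haveI := Fintype.ofFinite (Sylow p G)
    rw [Nat.card_eq_fintype_card, Fintype.card_subtype_compl, Fintype.card_subtype_eq,
      ← Nat.card_eq_fintype_card, H.number, H.card_sylow P]
    omega)
  obtain ⟨u, hu⟩ := hb.2 ⟨R, hR⟩
  exact ⟨u, congrArg Subtype.val hu, fun v hv => hf (Subtype.ext (hv.trans (congrArg Subtype.val hu).symm))⟩

theorem three (g : G) (P Q R : Sylow p G) (hPQ : P ≠ Q) (hQR : Q ≠ R) (hPR : P ≠ R)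
    (hP : g • P = P) (hQ : g • Q = Q) (hR : g • R = R) : g = 1 := by
  obtain ⟨u, hu, huniq⟩ := H.regular hPQ.symm hPR.symm
  have hu' : g * (u : G) * g⁻¹ ∈ P :=
    ((Subgroup.mem_normalizer_iff.1 (Sylow.smul_eq_iff_mem_normalizer.1 hP)) u).1 u.2
  have h1 : (⟨g * (u : G) * g⁻¹, hu'⟩ : (P : Subgroup G)) = u := huniq _ (by
    show (g * (u : G) * g⁻¹) • Q = R
    rw [mul_smul, mul_smul, inv_smul_eq_iff.2 hQ.symm, hu, hR])
  have h2 : Commute g (u : G) := mul_inv_eq_iff_eq_mul.1 (congrArg Subtype.val h1)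
  have hu1 : (u : G) ≠ 1 := fun e => hQR (by rw [← hu, e, one_smul])
  have hg : g ∈ (P : Subgroup G) := H.cent_eq u.2 hu1 ▸ Subgroup.mem_centralizer_singleton_iff.2 h2
  exact H.free hPQ.symm hg hQ

end Hyp

end Cfsg.Agent.H25.NsePGL
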